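import Cfsg.Agent.OrdCrit.Main

/-!
# `p ^ 2` divides the order of a group of Lie type in characteristic `p`, not `PSL₂(p)` (helper741)
-/

set_option autoImplicit false

namespace Cfsg.Agent.H741.Pd.Sq

open Finset Cfsg Cfsg.Agent.OrdCrit

theorem sq_of {p q k N d n r : ℕ} (hk : k ≠ 0) (hq : q = p ^ k) (hd : Nat.Coprime d p)
    (h : d * n = q ^ N * r) (hN : 2 ≤ N) : p ^ 2 ∣ n := by
  have h1 : p ^ 2 ∣ d * n := by
    rw [h, hq, ← pow_mul]
    refine (pow_dvd_pow p ?_).mul_right _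
    have : 1 ≤ k := Nat.one_le_iff_ne_zero.2 hk
    nlinarith
  exact (Nat.Coprime.pow_left _ hd.symm).dvd_of_dvd_mul_left h1

section families

variable {F : Type} [Field F] [Fintype F] {p : ℕ}

theorem two_le_half (m : ℕ) : 2 ≤ (m + 2 + 1) * (m + 2 + 1 - 1) / 2 := by
  rw [Nat.le_div_iff_mul_le (by norm_num)]
  have h7 : m + 2 + 1 - 1 = m + 2 := by omega
  rw [h7]
  nlinarith

theorem psl (hp : p.Prime) [CharP F p] {n : ℕ} (hn : 3 ≤ n) :
    p ^ 2 ∣ Nat.card (Matrix.ProjectiveSpecialLinearGroup (Fin n) F) := by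
  obtain ⟨k, hk, hq⟩ := exists_pow (F := F) hp
  have hq2 := two_le hp hk hq
  have h := S0243.result (F := F) rfl n (by omega)
  obtain ⟨m, rfl⟩ := Nat.exists_eq_add_of_le' hn
  rw [show m + 3 = (m + 2) + 1 by ring] at h ⊢
  rw [prod_gl, Finset.prod_range_succ', zero_add, pow_one, mul_left_comm, ← mul_assoc (Fintype.card F ^ _),
    mul_comm _ (Fintype.card F - 1)] at h
  have h' := Nat.eq_of_mul_eq_mul_left (show 0 < Fintype.card F - 1 by omega) h
  exact sq_of hk hq (Nat.Coprime.coprime_dvd_left (Nat.gcd_dvd_right _ _) (coprime_sub hp hk hq)) h' (two_le_half m)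

theorem psl_two (hp : p.Prime) [CharP F p] (h2 : Fintype.card F ≠ p) :
    p ^ 2 ∣ Nat.card (Matrix.ProjectiveSpecialLinearGroup (Fin 2) F) := by
  obtain ⟨k, hk, hq⟩ := exists_pow (F := F) hp
  have hq2 := two_le hp hk hq
  have h := S0243.result (F := F) rfl 2 le_rfl
  rw [prod_gl, Finset.prod_range_succ', Finset.prod_range_one] at h
  have he : (2 : ℕ) * (2 - 1) / 2 = 1 := by norm_num
  rw [he, pow_one, zero_add, mul_left_comm, ← mul_assoc (Fintype.card F),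
    mul_comm _ (Fintype.card F - 1)] at h
  have h' := Nat.eq_of_mul_eq_mul_left (show 0 < Fintype.card F - 1 by omega) h
  have hk2 : 2 ≤ k := by
    rcases k with _ | _ | k
    · exact absurd rfl hk
    · rw [zero_add, pow_one] at hq
      exact absurd hq h2
    · omega
  have h3 : p ^ 2 ∣ Nat.gcd 2 (Fintype.card F - 1) * Nat.card (Matrix.ProjectiveSpecialLinearGroup (Fin 2) F) := by
    rw [h']
    nth_rw 1 [hq]
    exact (pow_dvd_pow p hk2).mul_right _
  exact (Nat.Coprime.pow_left _ (Nat.Coprime.coprime_dvd_left (Nat.gcd_dvd_right _ _)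
    (coprime_sub hp hk hq)).symm).dvd_of_dvd_mul_left h3

theorem psu (hp : p.Prime) [CharP F p] {n q : ℕ} (hF : Fintype.card F = q ^ 2) (hn : 3 ≤ n) :
    p ^ 2 ∣ Nat.card (PSU n F q) := by
  obtain ⟨k, hk, hq⟩ := root_pow hp (by norm_num) (exists_pow (F := F) hp) hF
  have hq2 := two_le hp hk hq
  have h := S0280.result (F := F) hF n (by omega)
  obtain ⟨m, rfl⟩ := Nat.exists_eq_add_of_le' hn
  rw [show m + 3 = (m + 2) + 1 by ring] at h ⊢
  rw [Finset.prod_range_succ', if_pos (by decide), zero_add, pow_one, mul_left_comm, ← mul_assoc (q ^ _),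
    mul_comm _ (q + 1)] at h
  have h' := Nat.eq_of_mul_eq_mul_left (show 0 < q + 1 by omega) h
  exact sq_of hk hq (Nat.Coprime.coprime_dvd_left (Nat.gcd_dvd_right _ _) (coprime_add hp hk hq)) h' (two_le_half m)

theorem psp (hp : p.Prime) [CharP F p] {m : ℕ} (hm : 2 ≤ m) : p ^ 2 ∣ Nat.card (PSp m F) := by
  obtain ⟨k, hk, hq⟩ := exists_pow (F := F) hp
  have hq2 := two_le hp hk hq
  have h1 := S0245.result (F := F) rfl m
  have h2 := S0246.result (F := F) rfl m (by omega)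
  have h3 := Subgroup.card_mul_index (Subgroup.center ↥(Matrix.symplecticGroup (Fin m) F))
  rw [h1, h2] at h3
  exact sq_of hk hq (Nat.Coprime.coprime_dvd_left (Nat.gcd_dvd_right _ _) (coprime_sub hp hk hq)) h3 (by nlinarith)

theorem pomegaOdd (hp : p.Prime) [CharP F p] {m : ℕ} (hm : 3 ≤ m) (ho : Odd (Fintype.card F)) :
    p ^ 2 ∣ Nat.card (POmega F (quadFormOdd m F)) := by
  obtain ⟨k, hk, hq⟩ := exists_pow (F := F) hp
  have hq2 := two_le hp hk hq
  have hp2 : p ≠ 2 := by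
    rintro rfl
    rw [hq] at ho
    exact (Nat.not_odd_iff_even.2 ((even_two).pow_of_ne_zero hk)) ho
  have h1 := S0292.result (F := F) rfl ho m hm
  refine sq_of hk hq ?_ h1 (by nlinarith)
  rw [Nat.coprime_primes Nat.prime_two hp]; exact fun h => hp2 h.symm

theorem pomegaPlus (hp : p.Prime) [CharP F p] {m : ℕ} (hm : 4 ≤ m) :
    p ^ 2 ∣ Nat.card (POmega F (quadFormPlus m F)) := by
  obtain ⟨k, hk, hq⟩ := exists_pow (F := F) hp
  have hq2 := two_le hp hk hq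
  have h1 := S0293.result (F := F) rfl m hm
  rw [mul_assoc] at h1
  refine sq_of hk hq (Nat.Coprime.coprime_dvd_left (Nat.gcd_dvd_right _ _)
    (coprime_pow_sub m (by omega) hp hk hq)) h1 ?_
  obtain ⟨j, rfl⟩ := Nat.exists_eq_add_of_le' hm
  have : j + 4 - 1 = j + 3 := by omega
  rw [this]
  nlinarith

theorem pomegaMinus (hp : p.Prime) [CharP F p] {m : ℕ} (hm : 4 ≤ m) (a b : F)
    (hab : ∀ z₁ z₂ : F, z₁ ^ 2 + a * z₁ * z₂ + b * z₂ ^ 2 = 0 → z₁ = 0 ∧ z₂ = 0) :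
    p ^ 2 ∣ Nat.card (POmega F (quadFormMinus (m - 1) F a b)) := by
  obtain ⟨k, hk, hq⟩ := exists_pow (F := F) hp
  have hq2 := two_le hp hk hq
  have h1 := S0294.result (F := F) rfl m hm a b hab
  rw [mul_assoc] at h1
  refine sq_of hk hq (Nat.Coprime.coprime_dvd_left (Nat.gcd_dvd_right _ _)
    (coprime_pow_add m (by omega) hp hk hq)) h1 ?_
  obtain ⟨j, rfl⟩ := Nat.exists_eq_add_of_le' hm
  have : j + 4 - 1 = j + 3 := by omega
  rw [this]
  nlinarith

theorem g2 (hp : p.Prime) [CharP F p] : p ^ 2 ∣ Nat.card ↥(Lie.chevG2.group F) := by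
  obtain ⟨k, hk, hq⟩ := exists_pow (F := F) hp
  have h1 := S1059.result (F := F) rfl
  rw [mul_assoc, ← one_mul (Nat.card _)] at h1
  exact sq_of hk hq (Nat.coprime_one_left p) h1 (by norm_num)

theorem f4 (hp : p.Prime) [CharP F p] : p ^ 2 ∣ Nat.card ↥(Lie.chevF4.group F) := by
  obtain ⟨k, hk, hq⟩ := exists_pow (F := F) hp
  have h1 := S1062.result (F := F) rfl
  rw [mul_assoc, mul_assoc, mul_assoc, ← one_mul (Nat.card _)] at h1
  exact sq_of hk hq (Nat.coprime_one_left p) h1 (by norm_num)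

theorem e6 (hp : p.Prime) [CharP F p] : p ^ 2 ∣ Nat.card ↥(Lie.chevE6.group F) := by
  obtain ⟨k, hk, hq⟩ := exists_pow (F := F) hp
  have h1 := S1063.result (F := F) rfl
  rw [mul_assoc, mul_assoc, mul_assoc, mul_assoc, mul_assoc] at h1
  exact sq_of hk hq (Nat.Coprime.coprime_dvd_left (Nat.gcd_dvd_right _ _) (coprime_sub hp hk hq)) h1 (by norm_num)

theorem e7 (hp : p.Prime) [CharP F p] : p ^ 2 ∣ Nat.card ↥(Lie.chevE7.group F) := by
  obtain ⟨k, hk, hq⟩ := exists_pow (F := F) hp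
  have h1 := S1064.result (F := F) rfl
  rw [mul_assoc, mul_assoc, mul_assoc, mul_assoc, mul_assoc, mul_assoc] at h1
  exact sq_of hk hq (Nat.Coprime.coprime_dvd_left (Nat.gcd_dvd_right _ _) (coprime_sub hp hk hq)) h1 (by norm_num)

theorem e8 (hp : p.Prime) [CharP F p] : p ^ 2 ∣ Nat.card ↥(Lie.chevE8.group F) := by
  obtain ⟨k, hk, hq⟩ := exists_pow (F := F) hp
  have h1 := S1065.result (F := F) rfl
  rw [mul_assoc, mul_assoc, mul_assoc, mul_assoc, mul_assoc, mul_assoc, mul_assoc, ← one_mul (Nat.card _)] at h1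
  exact sq_of hk hq (Nat.coprime_one_left p) h1 (by norm_num)

theorem twE6 (hp : p.Prime) [CharP F p] {q : ℕ} (hpp : IsPrimePow q) (hF : Fintype.card F = q ^ 2) :
    p ^ 2 ∣ Nat.card ↥(Lie.twistedE6 F q) := by
  obtain ⟨k, hk, hq⟩ := root_pow hp (by norm_num) (exists_pow (F := F) hp) hF
  have h1 := S1066.result hpp hF
  rw [mul_assoc, mul_assoc, mul_assoc, mul_assoc, mul_assoc] at h1
  exact sq_of hk hq (Nat.Coprime.coprime_dvd_left (Nat.gcd_dvd_right _ _) (coprime_add hp hk hq)) h1 (by norm_num)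

theorem twD4 (hp : p.Prime) [CharP F p] {q : ℕ} (hpp : IsPrimePow q) (hF : Fintype.card F = q ^ 3) :
    p ^ 2 ∣ Nat.card ↥(Lie.twistedD4 F q) := by
  obtain ⟨k, hk, hq⟩ := root_pow hp (by norm_num) (exists_pow (F := F) hp) hF
  have h1 := S1067.result hpp hF
  rw [mul_assoc, mul_assoc, ← one_mul (Nat.card _)] at h1
  exact sq_of hk hq (Nat.coprime_one_left p) h1 (by norm_num)

theorem ree {K : Type} [Field K] [Fintype K] {m : ℕ} (hK : Fintype.card K = 3 ^ (2 * m + 1)) :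
    3 ^ 2 ∣ Nat.card ↥(Lie.twistedG2 K (3 ^ m)) := by
  have h1 := S1069.result hK
  rw [mul_assoc, ← one_mul (Nat.card _)] at h1
  exact sq_of (k := 2 * m + 1) (by omega) rfl (Nat.coprime_one_left 3) h1 (by norm_num)

theorem twF4 {K : Type} [Field K] [Fintype K] {m : ℕ} (hK : Fintype.card K = 2 ^ (2 * m + 1)) :
    2 ^ 2 ∣ Nat.card ↥(Lie.twistedF4 K (2 ^ m)) := by
  have h1 := S1068.result hK
  rw [mul_assoc, mul_assoc, mul_assoc, ← one_mul (Nat.card _)] at h1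
  exact sq_of (k := 2 * m + 1) (by omega) rfl (Nat.coprime_one_left 2) h1 (by norm_num)

theorem sz {K : Type} [Field K] [Fintype K] {m : ℕ} (hm : 1 ≤ m) (hK : Fintype.card K = 2 ^ (2 * m + 1)) :
    2 ^ 2 ∣ Nat.card ↥(Lie.Sz K (2 ^ (m + 1))) := by
  have h1 := (S1163.result hm hK).1
  rw [mul_assoc, ← one_mul (Nat.card _)] at h1
  exact sq_of (k := 2 * m + 1) (by omega) rfl (Nat.coprime_one_left 2) h1 (by norm_num)

end families

/-- **`p ^ 2 ∣ |X|`** for `X` of Lie type in characteristic `p`, unless `X ≅ PSL₂(F)`, `|F| = p`, `p ≥ 5`. -/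
theorem lie_sq {X : Type*} [Group X] {p : ℕ} (hp : p.Prime) (h : IsLieTypeChar p X) :
    p ^ 2 ∣ Nat.card X ∨
      ∃ (F : Type) (_ : Field F) (_ : Fintype F), CharP F p ∧ Fintype.card F = p ∧ 5 ≤ p ∧
        Nonempty (X ≃* Matrix.ProjectiveSpecialLinearGroup (Fin 2) F) := by
  rcases h with h | h | h | h | h | h | h | h | ⟨hp', h⟩ | ⟨hp', h⟩ | ⟨hp', h⟩
  · obtain ⟨F, i1, i2, i3, n, h1, h2, ⟨f⟩⟩ := h
    rcases Nat.lt_or_ge n 3 with h3 | h3
    · have h4 : n = 2 := by omega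
      subst h4
      by_cases h5 : Fintype.card F = p
      · right
        have h6 := h2 rfl
        refine ⟨F, i1, i2, i3, h5, ?_, ⟨f⟩⟩
        rw [h5] at h6
        rcases Nat.lt_or_ge p 5 with h7 | h7
        · exfalso
          have : p = 4 := by omega
          rw [this] at hp
          exact absurd hp (by norm_num)
        · exact h7
      · left
        rw [Nat.card_congr f.toEquiv]
        exact psl_two hp h5
    · left
      rw [Nat.card_congr f.toEquiv]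
      exact psl hp h3
  · obtain ⟨F, _, _, _, m, h1, h2, ⟨f⟩⟩ := h
    rw [Nat.card_congr f.toEquiv]
    exact Or.inl (psp hp h1)
  · obtain ⟨F, _, _, _, n, q, h1, h2, h3, ⟨f⟩⟩ := h
    rw [Nat.card_congr f.toEquiv]
    exact Or.inl (psu hp h1 h2)
  · obtain ⟨F, _, _, _, m, h1, h2, ⟨f⟩⟩ := h
    rw [Nat.card_congr f.toEquiv]
    exact Or.inl (pomegaOdd hp h1 h2)
  · obtain ⟨F, i1, i2, i3, m, h1, ⟨f⟩⟩ := h
    rw [Nat.card_congr f.toEquiv]
    exact Or.inl (pomegaPlus hp h1)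
  · obtain ⟨F, i1, i2, i3, m, a, b, h1, h2, ⟨f⟩⟩ := h
    rw [Nat.card_congr f.toEquiv]
    exact Or.inl (pomegaMinus hp h1 a b h2)
  · left
    obtain ⟨F, i1, i2, i3, h⟩ := h
    rcases h with ⟨h1, ⟨f⟩⟩ | ⟨⟨f⟩⟩ | ⟨⟨f⟩⟩ | ⟨⟨f⟩⟩ | ⟨⟨f⟩⟩
    · rw [Nat.card_congr f.toEquiv]; exact g2 hp
    · rw [Nat.card_congr f.toEquiv]; exact f4 hp
    · rw [Nat.card_congr f.toEquiv]; exact e6 hp
    · rw [Nat.card_congr f.toEquiv]; exact e7 hp
    · rw [Nat.card_congr f.toEquiv]; exact e8 hp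
  · left
    obtain ⟨F, i1, i2, i3, q, hq, h⟩ := h
    rcases h with ⟨h1, ⟨f⟩⟩ | ⟨h1, ⟨f⟩⟩
    · rw [Nat.card_congr f.toEquiv]; exact twE6 hp hq h1
    · rw [Nat.card_congr f.toEquiv]; exact twD4 hp hq h1
  · left
    obtain ⟨F, _, _, m, h1, h2, ⟨f⟩⟩ := h
    subst hp'
    rw [Nat.card_congr f.toEquiv]
    exact sz h1 h2
  · left
    obtain ⟨F, _, _, m, h1, h2, ⟨f⟩⟩ := h
    subst hp'
    rw [Nat.card_congr f.toEquiv]
    exact twF4 h2
  · left
    obtain ⟨F, _, _, m, h1, h2, ⟨f⟩⟩ := h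
    subst hp'
    rw [Nat.card_congr f.toEquiv]
    exact ree h2

end Cfsg.Agent.H741.Pd.Sq
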