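import Cfsg.Agent.H741.Pd.Base
import Cfsg.Agent.H741.Pd.Sq
import Cfsg.Agent.H761.LieExt
import Cfsg.Agent.H875.AltCop

/-!
# S4977: alternating groups, and groups of Lie type in characteristic `≠ p` (helper741)
-/

set_option autoImplicit false

namespace Cfsg.Agent.H741.Pd

open Cfsg Subgroup
open Cfsg.Agent.H671.H5 (ExtAut)

universe u

/-- A character which extends to the automorphism group is invariant. -/
theorem extAut_apply {S : Type u} [Group S] {θ : IrrCharacter S} (h : ExtAut θ) (φ : MulAut S) (s : S) :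
    (θ : S → ℂ) (φ s) = (θ : S → ℂ) s := by
  obtain ⟨ψ, hψ⟩ := h
  rw [← hψ, ← hψ]
  have h1 : MulAut.conj (φ s) = φ * MulAut.conj s * φ⁻¹ := by
    ext x
    simp [MulAut.conj_apply]
  rw [h1]
  exact Characters.Core.isIrr_isClassFunction ψ.2 _ _

theorem compS_of_extAut {p : ℕ} {S : Type u} [Group S] (θ : IrrCharacter S) (h : ExtAut θ)
    (h1 : ¬ p ∣ charDegree (θ : S → ℂ)) (h2 : charDegree (θ : S → ℂ) ≠ 1) (h3 : ¬ (charDegree (θ : S → ℂ)).Prime) :
    CompS p S :=
  fun _ _ => ⟨θ, h1, h2, h3, fun φ _ s => extAut_apply h φ s⟩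

/-- **Lie type in characteristic `r ≠ p`**, `r ^ 2` dividing the order. -/
theorem compS_cross {p r : ℕ} (hp : p.Prime) (hr : r.Prime) (hpr : p ≠ r) {S : Type u} [Group S] [Finite S]
    [IsSimpleGroup S] (hna : ¬ IsMulCommutative S) (h : IsLieTypeChar r S) (h2 : r ^ 2 ∣ Nat.card S) : CompS p S := by
  have : Fact r.Prime := ⟨hr⟩
  obtain ⟨θ, h3, h4⟩ := H761.LieExt.lie_ext hna h
  have h5 : 2 ≤ (Nat.card S).factorization r := (hr.pow_dvd_iff_le_factorization Nat.card_pos.ne').1 h2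
  refine compS_of_extAut θ h4 ?_ ?_ ?_
  · rw [h3]
    intro h6
    exact hpr ((Nat.prime_dvd_prime_iff_eq hp hr).1 (hp.dvd_of_dvd_pow h6))
  · rw [h3]
    exact (Nat.one_lt_pow (by omega) hr.one_lt).ne'
  · rw [h3]
    exact Nat.Prime.not_prime_pow h5

/-- **Alternating groups of degree at least seven.** -/
theorem compS_alt_seven {p : ℕ} (hp : p.Prime) (h5 : 5 ≤ p) {n : ℕ} (hn : 7 ≤ n) :
    CompS p (alternatingGroup (Fin n)) := by
  obtain ⟨α, β, h1, h2, h3, h4⟩ := H875.AltCop.alt_cop hn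
  obtain ⟨m, rfl⟩ := Nat.exists_eq_add_of_le' hn
  have e1 : m + 7 - 3 = m + 4 := by omega
  have e2 : m + 7 - 1 = m + 6 := by omega
  have e3 : m + 7 - 2 = m + 5 := by omega
  rw [e1] at h1
  rw [e2, e3] at h2
  have hev1 : 2 ∣ (m + 7) * (m + 4) := by
    rcases Nat.even_or_odd m with h | h
    · exact (Even.mul_left (h.add (by decide)) _).two_dvd
    · exact (Even.mul_right (h.add_odd (by decide)) _).two_dvd
  have hev2 : 2 ∣ (m + 6) * (m + 5) := by
    rcases Nat.even_or_odd m with h | h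
    · exact (Even.mul_right (h.add (by decide)) _).two_dvd
    · exact (Even.mul_left (h.add_odd (by decide)) _).two_dvd
  obtain ⟨a, ha⟩ := hev1
  obtain ⟨b, hb⟩ := hev2
  have ha' : (m + 7) * (m + 4) / 2 = a := by omega
  have hb' : (m + 6) * (m + 5) / 2 = b := by omega
  rw [ha'] at h1
  rw [hb'] at h2
  have hab : b = a + 1 := by nlinarith
  -- not prime
  have hnp : ∀ x y c : ℕ, 3 ≤ x → 3 ≤ y → x * y = 2 * c → ¬ c.Prime := by
    intro x y c hx hy hxy hc
    have hcx : c ∣ x * y := hxy ▸ Dvd.intro_left 2 rfl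
    rcases hc.dvd_mul.1 hcx with ⟨k, hk⟩ | ⟨k, hk⟩
    · rw [hk] at hxy
      have h6 : k * y = 2 := by
        have h7 : c * (k * y) = c * 2 := by rw [← mul_assoc, hxy, mul_comm]
        exact Nat.eq_of_mul_eq_mul_left hc.pos h7
      have h7 : y ≤ 2 := Nat.le_of_dvd (by norm_num) ⟨k, by rw [← h6, mul_comm]⟩
      omega
    · rw [hk] at hxy
      have h6 : x * k = 2 := by
        have h7 : c * (x * k) = c * 2 := by
          rw [← mul_assoc, mul_comm c x, mul_assoc, hxy, mul_comm]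
        exact Nat.eq_of_mul_eq_mul_left hc.pos h7
      have h7 : x ≤ 2 := Nat.le_of_dvd (by norm_num) ⟨k, h6.symm⟩
      omega
  by_cases hpa : p ∣ a
  · have hpb : ¬ p ∣ b := by
      intro h
      rw [hab] at h
      have := (Nat.dvd_add_right hpa).1 h
      exact hp.one_lt.ne' (Nat.dvd_one.1 this)
    refine compS_of_extAut β h4 (by rwa [h2]) ?_ ?_
    · rw [h2]
      nlinarith
    · rw [h2]
      exact hnp (m + 6) (m + 5) b (by omega) (by omega) hb
  · refine compS_of_extAut α h3 (by rwa [h1]) ?_ ?_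
    · rw [h1]
      nlinarith
    · rw [h1]
      exact hnp (m + 7) (m + 4) a (by omega) (by omega) ha

end Cfsg.Agent.H741.Pd
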