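import Cfsg.Agent.H741.Pd.Base
import Cfsg.Agent.SmallSimple.DegreeData
import Cfsg.Agent.SmallSimple.BurnsideNC

/-!
# S4977: a sieve on the order (helper741)

`sieve` : `S` finite nonabelian simple, `l` an odd prime with `|S|_l = l`, the primes of `|S|` in the list `L`:
if `chk l p L` then there is an irreducible character of `S` of composite degree prime to `p`.
Only the order of `S` is used (Brauer's theorem for the principal `l`-block).
-/

set_option autoImplicit false

namespace Cfsg.Agent.H741.Pd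

open Cfsg Subgroup
open Cfsg.Agent.SmallSimple.DegreeData

universe u

/-- No prime `≠ p, l` of the list is `±1` modulo `l`. -/
def chkA (l p : ℕ) (L : List ℕ) : Bool :=
  L.all fun r => r == p || r == l || (r % l != 1 && (r + 1) % l != 0)

/-- No prime `r` of the list is the degree of an exceptional character, with `d r = 1` modulo `p`. -/
def chkB (l p : ℕ) (L : List ℕ) : Bool :=
  L.all fun r => (List.range l).all fun e =>
    e == 0 || e == 1 || (l - 1) % e != 0 || (!(r % l == e && r % p == 1) && !((r + e) % l == 0 && (r + 1) % p == 0))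

/-- The check. -/
def chk (l p : ℕ) (L : List ℕ) : Bool := chkA l p L && (l == p || chkB l p L)

theorem chkA_spec {l p : ℕ} {L : List ℕ} (h : chkA l p L = true) {r : ℕ} (hr : r ∈ L) (h1 : r ≠ p) (h2 : r ≠ l) :
    r % l ≠ 1 ∧ (r + 1) % l ≠ 0 := by
  have h3 := List.all_eq_true.1 h r hr
  simp only [Bool.or_eq_true, beq_iff_eq, Bool.and_eq_true, bne_iff_ne] at h3
  rcases h3 with (h3 | h3) | h3
  · exact absurd h3 h1
  · exact absurd h3 h2
  · exact h3

theorem chkB_spec {l p : ℕ} {L : List ℕ} (h : chkB l p L = true) {r : ℕ} (hr : r ∈ L) {e : ℕ} (he : 2 ≤ e)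
    (hel : e < l) (hd : e ∣ l - 1) :
    ¬ (r % l = e ∧ r % p = 1) ∧ ¬ ((r + e) % l = 0 ∧ (r + 1) % p = 0) := by
  have h3 := List.all_eq_true.1 (List.all_eq_true.1 h r hr) e (List.mem_range.2 hel)
  simp only [Bool.or_eq_true, beq_iff_eq, Bool.and_eq_true, bne_iff_ne, Bool.not_eq_true',
    Bool.and_eq_false_iff, beq_eq_false_iff_ne] at h3
  have h4 : (l - 1) % e = 0 := Nat.mod_eq_zero_of_dvd hd
  rcases h3 with ((h3 | h3) | h3) | h3
  · omega
  · omega
  · exact absurd h4 h3
  · refine ⟨fun h5 => ?_, fun h5 => ?_⟩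
    · rcases h3.1 with h6 | h6
      · exact h6 h5.1
      · exact h6 h5.2
    · rcases h3.2 with h6 | h6
      · exact h6 h5.1
      · exact h6 h5.2

theorem card_sylow_eq' {G : Type u} [Group G] [Finite G] {l : ℕ} [hl : Fact l.Prime] (h1 : l ∣ Nat.card G)
    (h2 : ¬ l ^ 2 ∣ Nat.card G) (P : Sylow l G) : Nat.card P = l := by
  have h3 := P.card_eq_multiplicity
  have h4 : (Nat.card G).factorization l = 1 := by
    have h5 : 0 < (Nat.card G).factorization l :=
      hl.1.factorization_pos_of_dvd Nat.card_pos.ne' h1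
    have h6 : ¬ 2 ≤ (Nat.card G).factorization l := fun h =>
      h2 ((hl.1.pow_dvd_iff_le_factorization Nat.card_pos.ne').2 h)
    omega
  rw [h3, h4, pow_one]

/-- **The sieve.** -/
theorem sieve {S : Type u} [Group S] [Finite S] [IsSimpleGroup S] (hna : ∃ a b : S, a * b ≠ b * a)
    {p : ℕ} (hp : p.Prime) {l : ℕ} (hl : l.Prime) (hl2 : l ≠ 2) (hlS : l ∣ Nat.card S)
    (hlS2 : ¬ l ^ 2 ∣ Nat.card S) {L : List ℕ} (hL : ∀ r : ℕ, r.Prime → r ∣ Nat.card S → r ∈ L)
    (h : chk l p L = true) :
    ∃ χ : IrrCharacter S, ¬ p ∣ charDegree (χ : S → ℂ) ∧ charDegree (χ : S → ℂ) ≠ 1 ∧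
      ¬ (charDegree (χ : S → ℂ)).Prime := by
  classical
  by_contra hcon
  push Not at hcon
  have : Fact l.Prime := ⟨hl⟩
  obtain ⟨M, hM⟩ := Blocks.ExistsModular.exists_isPModular hl
  obtain ⟨P⟩ : Nonempty (Sylow l S) := inferInstance
  have hP := card_sylow_eq' hlS hlS2 P
  have hne : Nat.card S ≠ l := by
    intro h1
    obtain ⟨a, b, hab⟩ := hna
    have : IsCyclic S := isCyclic_of_prime_card h1
    have h2 : IsMulCommutative S := inferInstance
    exact hab (h2.is_comm.comm a b)
  obtain ⟨e, he⟩ : ∃ e, (centralizer (P : Set S)).relIndex (normalizer (P : Set S)) = e := ⟨_, rfl⟩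
  have he1 : e ≠ 1 := he ▸ SmallSimple.BurnsideNC.relIndex_ne_one hlS hne P
  have hel : e ∣ l - 1 := he ▸ SmallSimple.BurnsideNC.relIndex_dvd_of_card_eq_prime P hP
  have hl3 : 3 ≤ l := by
    have := hl.two_le
    omega
  have he0 : e ≠ 0 := by
    rintro rfl
    rw [zero_dvd_iff] at hel
    omega
  have hel' : e < l := by
    have := Nat.le_of_dvd (by omega) hel
    omega
  obtain ⟨t, ht⟩ := hel
  obtain ⟨D⟩ := exists_blockData l hl2 M hM P hP e t he ht.symm
  have hperf := commutator_eq_top hna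
  have hdeg1 : ∀ χ : IrrCharacter S, χ ≠ D.one → charDegree (χ : S → ℂ) ≠ 1 := by
    intro χ hχ h1
    apply hχ
    apply Subtype.ext
    rw [D.coe_one]
    exact eq_one_of_degree hperf χ.2 h1
  -- the nonexceptional characters
  have hcl1 : ∀ z ∈ D.degs, (p : ℤ) ∣ z := by
    intro z hz
    obtain ⟨χ, hχ, rfl⟩ := List.mem_map.1 hz
    have hχ' : χ ∈ D.one :: D.l := List.mem_cons_of_mem _ hχ
    have hne1 : χ ≠ D.one := by
      rintro rfl
      exact (List.nodup_cons.1 D.nodup).1 hχ
    rw [Int.natCast_dvd, D.natAbs_sd hχ']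
    by_contra hpχ
    have hr := hcon χ hpχ (hdeg1 χ hne1)
    have h1 := D.sd_modEq hP hχ'
    have h2 := D.natAbs_sd hχ'
    obtain ⟨r, hrdef⟩ : ∃ r, charDegree (χ : S → ℂ) = r := ⟨_, rfl⟩
    rw [hrdef] at hr h2 hpχ
    have hrS : r ∣ Nat.card S := hrdef ▸ Blocks.Knorr.charDegree_dvd χ.2
    have hrp : r ≠ p := fun h3 => hpχ (by rw [h3])
    have h3 : ((r : ℤ) - 1) % l = 0 ∨ ((r : ℤ) + 1) % l = 0 := by
      rcases Int.natAbs_eq (D.sd χ) with h4 | h4
      · left
        rw [h4, h2] at h1
        exact Int.emod_eq_zero_of_dvd (Int.modEq_iff_dvd.1 h1.symm)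
      · right
        rw [h4, h2] at h1
        have := Int.modEq_iff_dvd.1 h1
        exact Int.emod_eq_zero_of_dvd (by
          have h5 : (r : ℤ) + 1 = 1 - -(r : ℤ) := by ring
          rw [h5]; exact this)
    have hrl : r ≠ l := by
      rintro rfl
      rcases h3 with h3 | h3
      · have h5 := Int.dvd_of_emod_eq_zero h3
        have h6 : (r : ℤ) ∣ 1 := by
          have := (dvd_sub_right (dvd_refl (r : ℤ))).1 h5
          exact this
        have := Int.natCast_dvd.1 h6
        simp at this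
        omega
      · have h5 := Int.dvd_of_emod_eq_zero h3
        have h6 : (r : ℤ) ∣ 1 := (dvd_add_right (dvd_refl (r : ℤ))).1 h5
        have := Int.natCast_dvd.1 h6
        simp at this
        omega
    have hA : chkA l p L = true := by
      rw [chk, Bool.and_eq_true] at h
      exact h.1
    obtain ⟨h4, h5⟩ := chkA_spec hA (hL r hr hrS) hrp hrl
    rcases h3 with h3 | h3
    · apply h4
      have h6 := Int.dvd_of_emod_eq_zero h3
      have h7 : (1 : ℕ) ≡ r [MOD l] := by
        rw [← Int.natCast_modEq_iff]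
        exact Int.modEq_iff_dvd.2 (by simpa using h6)
      have h8 : r % l = 1 % l := h7.symm
      rw [h8]
      exact Nat.mod_eq_of_lt (by omega)
    · apply h5
      have h6 := Int.dvd_of_emod_eq_zero h3
      exact Nat.mod_eq_zero_of_dvd (by exact_mod_cast h6)
  -- there is one
  have hlen := D.length_degs
  by_cases hlp : l = p
  · obtain ⟨z, hz⟩ : ∃ z, z ∈ D.degs := by
      apply List.exists_mem_of_ne_nil
      intro h1
      rw [h1, List.length_nil] at hlen
      omega
    obtain ⟨h1, -, -⟩ := D.degs_spec hP z hz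
    have h2 := hcl1 z hz
    rw [← hlp] at h2
    have h3 : (l : ℤ) ∣ 1 := by
      have h4 := Int.modEq_iff_dvd.1 h1
      have := dvd_add h4 h2
      simpa using this
    have := Int.natCast_dvd.1 h3
    simp at this
    omega
  · have hB : chkB l p L = true := by
      rw [chk, Bool.and_eq_true, Bool.or_eq_true, beq_iff_eq] at h
      exact h.2.resolve_left hlp
    have h1 := D.dexc_eq ht.symm
    have h2 : (p : ℤ) ∣ D.degs.sum := List.dvd_sum hcl1
    have h3 : (p : ℤ) ∣ D.dexc - 1 := by
      rw [← h1]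
      simpa using h2
    have h4 := D.dexc_modEq hP ht.symm
    obtain ⟨Θ, hΘ⟩ := D.exists_X ht.symm
    have h5 := D.deg_X Θ hΘ
    have hne1 : Θ ≠ D.one := by
      rintro rfl
      exact D.notMem_X D.one List.mem_cons_self hΘ
    have h6 := hdeg1 Θ hne1
    have h7 := D.natAbs_dexc
    rw [h5] at h6
    have hpf : ¬ p ∣ D.f := by
      intro h8
      rw [← h7] at h8
      have h9 : (p : ℤ) ∣ D.dexc := Int.natCast_dvd.2 h8
      have h10 : (p : ℤ) ∣ 1 := by
        have := dvd_sub h9 h3
        simpa using this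
      have := Int.natCast_dvd.1 h10
      simp at this
      exact hp.one_lt.ne' this
    have hr : D.f.Prime := by
      have := hcon Θ
      rw [h5] at this
      exact this hpf h6
    obtain ⟨h8, h9⟩ := chkB_spec hB (hL D.f hr (D.f_dvd ht.symm)) (e := e) (by omega) hel' ⟨t, ht⟩
    rcases Int.natAbs_eq D.dexc with h10 | h10
    · apply h8
      rw [h10, h7] at h4 h3
      constructor
      · have h11 : D.f ≡ e [MOD l] := by exact_mod_cast h4
        have h12 : D.f % l = e % l := h11
        rw [h12]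
        exact Nat.mod_eq_of_lt hel'
      · have h11 : (1 : ℕ) ≡ D.f [MOD p] := by
          rw [← Int.natCast_modEq_iff]
          exact Int.modEq_iff_dvd.2 (by simpa using h3)
        have h12 : D.f % p = 1 % p := h11.symm
        rw [h12]
        exact Nat.mod_eq_of_lt hp.one_lt
    · apply h9
      rw [h10, h7] at h4 h3
      constructor
      · have h11 := Int.modEq_iff_dvd.1 h4
        have h12 : (l : ℤ) ∣ ((D.f + e : ℕ) : ℤ) := by
          push_cast
          have h13 : (e : ℤ) - -(D.f : ℤ) = D.f + e := by ring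
          rwa [h13] at h11
        exact Nat.mod_eq_zero_of_dvd (by exact_mod_cast h12)
      · have h12 : (p : ℤ) ∣ ((D.f + 1 : ℕ) : ℤ) := by
          push_cast
          have h13 : (D.f : ℤ) + 1 = -(-(D.f : ℤ) - 1) := by ring
          rw [h13]
          exact (dvd_neg).2 h3
        exact Nat.mod_eq_zero_of_dvd (by exact_mod_cast h12)

/-- The primes of a number. -/
theorem mem_of_prime_dvd {n k : ℕ} {L : List ℕ} (hL : ∀ r ∈ L, r.Prime) (hn : n ∣ L.prod ^ k) {r : ℕ}
    (hr : r.Prime) (h : r ∣ n) : r ∈ L := by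
  have h1 : r ∣ L.prod := hr.dvd_of_dvd_pow (h.trans hn)
  obtain ⟨s, hs, hrs⟩ := (Prime.dvd_prod_iff hr.prime).1 h1
  have := (Nat.prime_dvd_prime_iff_eq hr (hL s hs)).1 hrs
  rw [this]
  exact hs

end Cfsg.Agent.H741.Pd
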