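import Cfsg.Agent.H741.Pd.Cross
import Cfsg.Agent.H741.Pd.SporArith
import Cfsg.Agent.H464.PslDeg
import Cfsg.Agent.H679.LieAlt
import Cfsg.Agent.Omega.KFactsZS
import Cfsg.Agent.S2602
import Cfsg.Agent.H681.DegBasic
import Cfsg.Agent.CpAut.Alt
import Cfsg.Agent.S0253

/-!
# S4977: `A₅`, `A₆`, and `PSL₂(l)` for primes `l ≠ p` (helper741)
-/

set_option autoImplicit false

namespace Cfsg.Agent.H741.Pd

open Cfsg Subgroup

universe u

theorem card_alt_five : Nat.card (alternatingGroup (Fin 5)) = 60 := by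
  have h := nat_card_alternatingGroup (α := Fin 5)
  rw [h, Nat.card_eq_fintype_card, Fintype.card_fin]
  decide

theorem card_alt_six : Nat.card (alternatingGroup (Fin 6)) = 360 := by
  have h := nat_card_alternatingGroup (α := Fin 6)
  rw [h, Nat.card_eq_fintype_card, Fintype.card_fin]
  decide

theorem compS_alt_five {p : ℕ} (hp : p.Prime) (h5 : 5 ≤ p) : CompS p (alternatingGroup (Fin 5)) := by
  have h1 : IsSimpleGroup (alternatingGroup (Fin 5)) := alternatingGroup.isSimpleGroup_five
  refine compS_cross hp Nat.prime_two (by omega) (CpAut.not_comm_alt le_rfl)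
    (Omega.KFacts.charTwo_alt_five (MulEquiv.refl _)) ?_
  rw [card_alt_five]
  norm_num

theorem compS_alt_six {p : ℕ} (hp : p.Prime) (h5 : 5 ≤ p) : CompS p (alternatingGroup (Fin 6)) := by
  have h1 : IsSimpleGroup (alternatingGroup (Fin 6)) := alternatingGroup.isSimpleGroup (by simp)
  refine compS_cross hp Nat.prime_three (by omega) (CpAut.not_comm_alt (by norm_num))
    H679.isLie_alt_six ?_
  rw [card_alt_six]
  norm_num

/-- Alternating groups. -/
theorem compS_alt {p : ℕ} (hp : p.Prime) (h5 : 5 ≤ p) {n : ℕ} (hn : 5 ≤ n) :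
    CompS p (alternatingGroup (Fin n)) := by
  rcases Nat.lt_or_ge n 7 with h | h
  · obtain rfl | rfl : n = 5 ∨ n = 6 := by omega
    · exact compS_alt_five hp h5
    · exact compS_alt_six hp h5
  · exact compS_alt_seven hp h5 h

/-- `Out (PSL₂(l))` has order dividing two. -/
theorem outTwo_psl {l : ℕ} [hl : Fact l.Prime] (h4 : 4 ≤ l) {F : Type u} [Field F] [Fintype F]
    (hF : Fintype.card F = l) : H679.OutTwo (Matrix.ProjectiveSpecialLinearGroup (Fin 2) F) := by
  obtain ⟨φ, -, -, h3⟩ := S2602.result (F := F) (p := l) (f := 1) le_rfl (by rw [hF, pow_one]) (by rwa [pow_one])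
  have hk : φ.ker = ⊤ := by
    rw [eq_top_iff]
    intro x _
    rw [MonoidHom.mem_ker]
    have : Subsingleton (Multiplicative (ZMod 1)) := inferInstanceAs (Subsingleton (ZMod 1))
    exact Subsingleton.elim _ _
  rw [hk, Nat.card_congr Subgroup.topEquiv.toEquiv] at h3
  apply H679.OutTwo.of_pow
  intro x
  have h4 : (QuotientGroup.mk x : Out (Matrix.ProjectiveSpecialLinearGroup (Fin 2) F)) ^ 2 = 1 := by
    have h5 := pow_card_eq_one' (x := (QuotientGroup.mk x : Out (Matrix.ProjectiveSpecialLinearGroup (Fin 2) F)))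
    rw [h3] at h5
    exact orderOf_dvd_iff_pow_eq_one.1 ((orderOf_dvd_of_pow_eq_one h5).trans (Nat.gcd_dvd_left _ _))
  rw [← QuotientGroup.mk_pow, QuotientGroup.eq_one_iff] at h4
  exact h4

/-- `PSL₂(l)`, `l ≠ p` prime. -/
theorem compS_psl_prime {p l : ℕ} (hp : p.Prime) (h5 : 5 ≤ p) (hl : l.Prime) (hl5 : 5 ≤ l)
    {F : Type} [Field F] [Fintype F] (hF : Fintype.card F = l) :
    p ≠ l → CompS p (Matrix.ProjectiveSpecialLinearGroup (Fin 2) F) := by
  intro hpl
  rcases Nat.lt_or_ge l 7 with h7 | h7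
  · have h6 : l ≠ 6 := by
      rintro rfl
      exact absurd hl (by norm_num)
    obtain ⟨e⟩ := S0253.result (F := F) (by omega)
    exact CompS.of_equiv e (compS_alt_five hp h5)
  · have : Fact l.Prime := ⟨hl⟩
    refine compS_of_inner (innerP_of_outTwo (outTwo_psl (by omega) hF) hp (by omega)) ?_
    obtain ⟨h1, h2⟩ := H464.PslDeg.psl_degrees (F := F) (by omega)
    obtain ⟨χ, hχ, hn⟩ := H681.DegBasic.mem_charDegrees.1 h1
    obtain ⟨ψ, hψ, hm⟩ := H681.DegBasic.mem_charDegrees.1 h2
    rw [hF] at hn hm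
    have hodd : ¬ 2 ∣ l := fun h => by
      have := (Nat.prime_dvd_prime_iff_eq Nat.prime_two hl).1 h
      omega
    have hdχ : charDegree χ = l + 1 := H687.charDegree_of_eq (by rw [hn])
    have hdψ : charDegree ψ = l - 1 := H687.charDegree_of_eq (by rw [hm])
    have h2χ : ¬ (l + 1).Prime := fun h => by
      have := (Nat.prime_dvd_prime_iff_eq Nat.prime_two h).1 (by omega)
      omega
    have h2ψ : ¬ (l - 1).Prime := fun h => by
      have := (Nat.prime_dvd_prime_iff_eq Nat.prime_two h).1 (by omega)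
      omega
    by_cases h8 : p ∣ l + 1
    · refine ⟨⟨ψ, hψ⟩, ?_, ?_, ?_⟩
      · change ¬ p ∣ charDegree ψ
        rw [hdψ]
        intro h9
        have h10 := (Nat.dvd_sub h8 h9)
        have h11 := Nat.le_of_dvd (by omega) h10
        omega
      · change charDegree ψ ≠ 1
        omega
      · change ¬ (charDegree ψ).Prime
        rwa [hdψ]
    · refine ⟨⟨χ, hχ⟩, ?_, ?_, ?_⟩
      · change ¬ p ∣ charDegree χ
        rwa [hdχ]
      · change charDegree χ ≠ 1
        omega
      · change ¬ (charDegree χ).Prime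
        rwa [hdχ]

end Cfsg.Agent.H741.Pd
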