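import Cfsg.Agent.H741.Pd.SporArith
import Cfsg.Agent.NotCT.Orders
import Cfsg.Agent.H679.SporOut
import Cfsg.Agent.H679.SporOutBig
import Cfsg.Prelude.Def_Classification2

/-!
# S4977: the table for the sporadic groups and the Tits group (helper741)
-/

set_option autoImplicit false

namespace Cfsg.Agent.H741.Pd

open Cfsg

universe u

/-- **The sporadic groups.** -/
theorem compS_sporadic {S : Type u} [Group S] [Finite S] [IsSimpleGroup S] (hna : ∃ a b : S, a * b ≠ b * a)
    (h : IsSporadicGroup S) {p : ℕ} (hp : p.Prime) (h5 : 5 ≤ p) : CompS p S := by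
  rcases h with h | h | h | h | h | h | h | h | h | h | h | h | h | h | h | h | h | h | h | h | h | h | h | h | h | h
  · exact m11 hna (H679.SporOut.m11 h) (NotCT.Orders.m11 h) hp h5
  · exact m12 hna (H679.SporOut.m12 h) (NotCT.Orders.m12 h) hp h5
  · exact m22 hna (H679.SporOut.m22 h) (NotCT.Orders.m22 h) hp h5
  · exact m23 hna (H679.SporOut.m23 h) (NotCT.Orders.m23 h) hp h5
  · exact m24 hna (H679.SporOut.m24 h) (NotCT.Orders.m24 h) hp h5
  · exact j1 hna (H679.SporOut.j1 h) (NotCT.Orders.j1 h) hp h5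
  · exact j2 hna (H679.SporOut.j2 h) (NotCT.Orders.j2 h) hp h5
  · exact j3 hna (H679.SporOut.j3 h) (NotCT.Orders.j3 h) hp h5
  · exact j4 hna (H679.SporOut.j4 h) (NotCT.Orders.j4 h) hp h5
  · exact co1 hna (H679.SporOut.co1 h) (NotCT.Orders.co1 h) hp h5
  · exact co2 hna (H679.SporOut.co2 h) (NotCT.Orders.co2 h) hp h5
  · exact co3 hna (H679.SporOut.co3 h) (NotCT.Orders.co3 h) hp h5
  · exact mcl hna (H679.SporOut.mcl h) (NotCT.Orders.mcl h) hp h5
  · exact hs hna (H679.SporOut.hs h) (NotCT.Orders.hs h) hp h5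
  · exact suz hna (H679.SporOut.suz h) (NotCT.Orders.suz h) hp h5
  · exact he hna (H679.SporOut.he h) (NotCT.Orders.he h) hp h5
  · exact ru hna (H679.SporOut.ru h) (NotCT.Orders.ru h) hp h5
  · exact on hna (H679.SporOut.on h) (NotCT.Orders.on h) hp h5
  · exact ly hna (H679.SporOut.ly h) (NotCT.Orders.ly h) hp h5
  · exact fi22 hna (H679.SporOut.fi22 h) (NotCT.Orders.fi22 h) hp h5
  · exact fi23 hna (H679.SporOut.fi23 h) (NotCT.Orders.fi23 h) hp h5
  · exact fi24 hna (H679.SporOut.fi24 h) (NotCT.Orders.fi24 h) hp h5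
  · exact hn hna (H679.SporOut.hn h) (NotCT.Orders.hn h) hp h5
  · exact th hna (H679.SporOut.th h) (NotCT.Orders.th h) hp h5
  · exact b hna (H679.SporOut.b h) (NotCT.Orders.b h) hp h5
  · exact m hna (H679.SporOut.m h) (NotCT.Orders.m h) hp h5

/-- **The Tits group.** -/
theorem compS_tits {S : Type u} [Group S] [Finite S] [IsSimpleGroup S] (hna : ∃ a b : S, a * b ≠ b * a)
    (h : Lie.IsoTits S) {p : ℕ} (hp : p.Prime) (h5 : 5 ≤ p) : CompS p S :=
  tits hna (H679.SporOut.tits h) (NotCT.Orders.tits h) hp h5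

end Cfsg.Agent.H741.Pd
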